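import Cfsg.Agent.H31.RC.Spor.Gen
import Cfsg.Agent.H873.RG.Defs
import Cfsg.Agent.CTwoTab.HN
import Cfsg.Agent.KFacts.HN.Large

/-!
# S3509, the Harada-Norton group: covers commuting with an inner involution (helper31)

* `nsa_HS` : `HS` is nonabelian simple and not alternating;
* `dead_inv` : a family of commuting elements of different prime orders of `HN` commuting with an involution `t`, the
  involution among them being `t`, is no cover.
-/

set_option autoImplicit false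
open Cfsg

namespace Cfsg.Agent.H31.RC.Spor.HN

open MulAction Subgroup Cfsg.Agent.H106.RC Cfsg.Agent.H873.RG
open Cfsg.Agent.HN Cfsg.Agent.HN.Pres Cfsg.Agent.HN.XWords Cfsg.Agent.HN.XStruct Cfsg.Agent.KFacts.HN
open Cfsg.Agent.HN.H0Basic

/-! ### generalities -/

section pairs

variable {G : Type*} [Group G]

/-- the family of two elements -/
def two (a b : G) : Bool → G := fun c => cond c a b

/-- two commuting elements of different prime orders -/
theorem pf_two {a b : G} {p q : ℕ} (hp : p.Prime) (hq : q.Prime) (hpq : p ≠ q) (ha : orderOf a = p)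
    (hb : orderOf b = q) (hab : a * b = b * a) : PF (two a b) (fun c => cond c p q) := by
  refine ⟨?_, ?_, ?_, ?_, ?_⟩
  · rintro (_ | _)
    · exact hq
    · exact hp
  · rintro (_ | _) (_ | _) h
    · rfl
    · exact absurd h.symm hpq
    · exact absurd h hpq
    · rfl
  · rintro (_ | _)
    · show b ^ q = 1
      rw [← hb, pow_orderOf_eq_one]
    · show a ^ p = 1
      rw [← ha, pow_orderOf_eq_one]
  · rintro (_ | _) h
    · rw [show b = 1 from h, orderOf_one] at hb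
      exact hq.one_lt.ne hb
    · rw [show a = 1 from h, orderOf_one] at ha
      exact hp.one_lt.ne ha
  · rintro (_ | _) (_ | _)
    · rfl
    · exact hab.symm
    · exact hab
    · rfl

theorem cov_two {Ω : Type*} [MulAction G Ω] {a b : G} (h : ∀ ω : Ω, a • ω = ω ∨ b • ω = ω) : Cov Ω (two a b) := by
  intro ω
  rcases h ω with h | h
  · exact ⟨true, h⟩
  · exact ⟨false, h⟩

theorem orderOf_of_pf {ι : Type*} {x : ι → G} {r : ι → ℕ} (h : PF x r) (i : ι) : orderOf (x i) = r i := by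
  have hf : Fact (r i).Prime := ⟨h.prime i⟩
  exact orderOf_eq_prime (h.pow i) (h.ne i)

/-- conjugation of the family -/
theorem pf_conj {ι : Type*} {x : ι → G} {r : ι → ℕ} (h : PF x r) (g : G) : PF (fun i => g * x i * g⁻¹) r := by
  refine ⟨h.prime, h.inj, fun i => ?_, fun i hi => ?_, fun i j => ?_⟩
  · rw [conj_pow, h.pow, mul_one, mul_inv_cancel]
  · exact h.ne i (conj_eq_one_iff.1 hi)
  · calc g * x i * g⁻¹ * (g * x j * g⁻¹) = g * (x i * x j) * g⁻¹ := by group
      _ = g * (x j * x i) * g⁻¹ := by rw [h.comm]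
      _ = _ := by group

theorem cov_conj {Ω ι : Type*} [MulAction G Ω] {x : ι → G} (h : Cov Ω x) (g : G) : Cov Ω (fun i => g * x i * g⁻¹) := by
  intro ω
  obtain ⟨i, hi⟩ := h (g⁻¹ • ω)
  refine ⟨i, ?_⟩
  show (g * x i * g⁻¹) • ω = ω
  rw [mul_smul, mul_smul, hi, smul_inv_smul]

theorem comm_conj {a b : G} (h : a * b = b * a) (g : G) : g * a * g⁻¹ * (g * b * g⁻¹) = g * b * g⁻¹ * (g * a * g⁻¹) := by
  calc g * a * g⁻¹ * (g * b * g⁻¹) = g * (a * b) * g⁻¹ := by group
    _ = g * (b * a) * g⁻¹ := by rw [h]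
    _ = _ := by group

theorem orderOf_conj (g a : G) : orderOf (g * a * g⁻¹) = orderOf a := MulEquiv.orderOf_eq (MulAut.conj g) a

/-- `q ∣ |C(x)|` for commuting elements -/
theorem dvd_cent [Finite G] {x y : G} {q : ℕ} (hy : orderOf y = q) (hxy : y * x = x * y) :
    q ∣ Nat.card (centralizer ({x} : Set G)) := by
  have h1 : y ∈ centralizer ({x} : Set G) := mem_centralizer_singleton_iff.2 hxy
  have h2 := Subgroup.orderOf_dvd_natCard _ h1
  rwa [hy] at h2

end pairs

/-! ### `HS` -/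

theorem nsa_HS : NSA Cfsg.Spor.HS := by
  have hc := CTwoTab.HN.card_HS
  refine ⟨CTwoTab.HN.simple_HS, ?_, ?_⟩
  · intro h
    have h1 := CTwoTab.HN.perfect_HS
    have h2 : commutator Cfsg.Spor.HS = ⊥ := by
      rw [_root_.commutator_def, Subgroup.commutator_eq_bot_iff_le_centralizer]
      intro a _
      rw [mem_centralizer_iff]
      intro b _
      exact h.is_comm.comm b a
    rw [h2] at h1
    have h3 : Nat.card (⊤ : Subgroup Cfsg.Spor.HS) = 1 := by rw [← h1, Subgroup.card_bot]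
    rw [Subgroup.card_top, hc] at h3
    norm_num at h3
  · rintro ⟨n, hn, ⟨e⟩⟩
    have h1 := Nat.card_congr e.toEquiv
    have hne : Nontrivial (Fin n) := Fin.nontrivial_iff_two_le.2 (by omega)
    rw [hc] at h1
    have h2 := two_mul_nat_card_alternatingGroup (α := Fin n)
    rw [← h1, Nat.card_perm, Nat.card_fin] at h2
    rcases lt_or_ge n 12 with h | h
    · interval_cases n <;> simp [Nat.factorial] at h2
    · have h3 := Nat.factorial_le h
      rw [← h2] at h3
      norm_num [Nat.factorial] at h3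

theorem fin : Finite Spor.HN := finite_HN

/-! ### families commuting with an involution -/

section cover

variable {Ω : Type} [MulAction Spor.HN Ω]

theorem N_perf : ⁅CTwoTab.HN.N, CTwoTab.HN.N⁆ = CTwoTab.HN.N := by
  have h : _root_.commutator ↥HS100.K = ⊤ := CTwoTab.HN.qs_K.1.1
  have h1 : ⁅HS100.K, HS100.K⁆ = HS100.K := by
    have h2 := congrArg (Subgroup.map HS100.K.subtype) h
    rw [_root_.commutator_def, Subgroup.map_commutator, ← MonoidHom.range_eq_map, Subgroup.range_subtype] at h2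
    exact h2
  rw [CTwoTab.HN.N, ← Subgroup.map_commutator, h1]

theorem exists_K {x : Spor.HN} (hx : x * Q 0 = Q 0 * x) {r : ℕ} (hr : r.Prime) (hr2 : r ≠ 2) (hxr : x ^ r = 1) :
    ∃ u ∈ HS100.K, NormalH.ψ u = x := by
  obtain ⟨u, rfl⟩ := mem_range_of_comm hx
  refine ⟨u, ?_, rfl⟩
  have hK : HS100.K.Normal := HS100.K_normal
  have h1 : u ^ r = 1 := emb.inj (by rw [map_pow, hxr, map_one])
  have h2 : (QuotientGroup.mk' HS100.K u) ^ 2 = 1 := by
    have h3 : Nat.card (H0 ⧸ HS100.K) = 2 := HS100.K_index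
    rw [← h3]
    exact pow_card_eq_one'
  have h3 : (QuotientGroup.mk' HS100.K u) ^ r = 1 := by rw [← map_pow, h1, map_one]
  have h4 : orderOf (QuotientGroup.mk' HS100.K u) ∣ Nat.gcd 2 r :=
    Nat.dvd_gcd (orderOf_dvd_of_pow_eq_one h2) (orderOf_dvd_of_pow_eq_one h3)
  rw [(Nat.coprime_primes Nat.prime_two hr).2 (Ne.symm hr2)] at h4
  have h5 := orderOf_eq_one_iff.1 (Nat.dvd_one.1 h4)
  exact (QuotientGroup.eq_one_iff _).1 h5

/-- an element of odd prime order commuting with `Q 0` does not centralise `2.HS` -/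
theorem not_cent {x : Spor.HN} (hx : x * Q 0 = Q 0 * x) {r : ℕ} (hr : r.Prime) (hr2 : r ≠ 2) (hxr : x ^ r = 1)
    (hx1 : x ≠ 1) : ¬ ∀ m ∈ CTwoTab.HN.N, x * m = m * x := by
  intro h
  obtain ⟨u, hu, rfl⟩ := exists_K hx hr hr2 hxr
  have h1 : (⟨u, hu⟩ : ↥HS100.K) ∈ center ↥HS100.K := by
    rw [mem_center_iff]
    intro m
    apply Subtype.ext
    apply emb.inj
    have h2 := h (NormalH.ψ (m : H0)) ⟨m, m.2, rfl⟩
    show NormalH.ψ ((m : H0) * u) = NormalH.ψ (u * (m : H0))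
    rw [map_mul, map_mul, h2]
  have h2 : Nat.card ↥(center ↥HS100.K) = 2 := CTwoTab.HN.dbl.1
  have h3 : (⟨u, hu⟩ : ↥HS100.K) ^ 2 = 1 := by
    have h4 := pow_card_eq_one' (x := (⟨⟨u, hu⟩, h1⟩ : ↥(center ↥HS100.K)))
    rw [h2] at h4
    exact congrArg Subtype.val h4
  have h4 : u ^ 2 = 1 := congrArg Subtype.val h3
  have h5 : NormalH.ψ u ^ 2 = 1 := by rw [← map_pow, h4, map_one]
  have h6 : orderOf (NormalH.ψ u) ∣ Nat.gcd 2 r :=
    Nat.dvd_gcd (orderOf_dvd_of_pow_eq_one h5) (orderOf_dvd_of_pow_eq_one hxr)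
  rw [(Nat.coprime_primes Nat.prime_two hr).2 (Ne.symm hr2)] at h6
  exact hx1 (orderOf_eq_one_iff.1 (Nat.dvd_one.1 h6))

/-- `C(Q 0)` normalises `2.HS` -/
theorem norm_N {x : Spor.HN} (hx : x * Q 0 = Q 0 * x) : x ∈ normalizer (CTwoTab.HN.N : Set Spor.HN) := by
  obtain ⟨u, rfl⟩ := mem_range_of_comm hx
  have hK : HS100.K.Normal := HS100.K_normal
  rw [mem_normalizer_iff]
  intro m
  constructor
  · rintro ⟨k, hk, rfl⟩
    exact ⟨u * k * u⁻¹, hK.conj_mem k hk u, by rw [map_mul, map_mul, map_inv]⟩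
  · rintro ⟨k, hk, hkm⟩
    refine ⟨u⁻¹ * k * u⁻¹⁻¹, hK.conj_mem k hk u⁻¹, ?_⟩
    simp only [map_mul, map_inv, hkm]
    group

theorem Q0_mem : Q 0 ∈ CTwoTab.HN.N := by
  have h1 : Q 0 = NormalH.ψ τ := Q0_eq
  rw [h1]
  refine ⟨τ, ?_, rfl⟩
  exact (HS100.K).pow_mem HS100.gx_mem 2

/-- the class of `Q 0` -/
theorem dead_2A (hIH : IHx (Nat.card Spor.HN)) (hF : ∀ t : Spor.HN, t ≠ 1 → ∃ ω : Ω, t • ω ≠ ω) {ι : Type} [Finite ι]
    {x : ι → Spor.HN} {r : ι → ℕ} (h : PF x r) (hc : Cov Ω x) (hQ : Q 0 ≠ 1)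
    (hcomm : ∀ i, x i * Q 0 = Q 0 * x i) (h2 : ∀ i, r i = 2 → x i = Q 0) : False := by
  have := fin
  obtain ⟨ω, hω⟩ := hF (Q 0) hQ
  apply hω
  have hfinHS : Finite Cfsg.Spor.HS := Nat.finite_of_card_ne_zero (by rw [CTwoTab.HN.card_HS]; norm_num)
  obtain ⟨e⟩ := CTwoTab.HN.quo_equiv
  let π : ↥CTwoTab.HN.N →* Cfsg.Spor.HS :=
    (e.toMonoidHom.comp (QuotientGroup.mk' (center HS100.K))).comp CTwoTab.HN.eN.symm.toMonoidHom
  have hne : CTwoTab.HN.N ≠ ⊤ := by
    intro htop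
    have h1 := congrArg (fun K : Subgroup Spor.HN => Nat.card K) htop
    have h2 : Nat.card ↥CTwoTab.HN.N = 88704000 := by
      rw [← Nat.card_congr CTwoTab.HN.eN.toEquiv, CTwoTab.HN.card_K]
    have h3 : Nat.card ↥(⊤ : Subgroup Spor.HN) = Nat.card Spor.HN := Subgroup.card_top
    change Nat.card ↥CTwoTab.HN.N = Nat.card ↥(⊤ : Subgroup Spor.HN) at h1
    rw [h2, h3, Classes.card_HN] at h1
    norm_num at h1
  have hπ : Function.Surjective π :=
    e.surjective.comp ((QuotientGroup.mk'_surjective _).comp CTwoTab.HN.eN.symm.surjective)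
  have hker : π.ker ≤ center ↥CTwoTab.HN.N := by
    intro m hm
    rw [MonoidHom.mem_ker] at hm
    have h1 : (QuotientGroup.mk' (center HS100.K)) (CTwoTab.HN.eN.symm m) = 1 := by
      apply e.injective
      rw [map_one]
      exact hm
    have h2 : CTwoTab.HN.eN.symm m ∈ center HS100.K := (QuotientGroup.eq_one_iff _).1 h1
    rw [mem_center_iff] at h2 ⊢
    intro n
    apply CTwoTab.HN.eN.symm.injective
    rw [map_mul, map_mul]
    exact h2 _
  rcases mrule_IHx hIH (N := (⊤ : Subgroup Spor.HN)) Subgroup.topEquiv (M := CTwoTab.HN.N) le_top hne N_perf π hπ hker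
    nsa_HS h hc (fun i => norm_N (hcomm i)) ω with h1 | ⟨j, h1, h3⟩
  · exact h1 Q0_mem
  · by_cases hj : r j = 2
    · rw [← h2 j hj]; exact h3
    · exact absurd h1 (not_cent (hcomm j) (h.prime j) hj (h.pow j) (h.ne j))

/-- **families commuting with an involution** -/
theorem dead_inv (hIH : IHx (Nat.card Spor.HN)) (hF : ∀ t : Spor.HN, t ≠ 1 → ∃ ω : Ω, t • ω ≠ ω) {ι : Type} [Finite ι]
    {x : ι → Spor.HN} {r : ι → ℕ} (h : PF x r) (hc : Cov Ω x) {t : Spor.HN} (ht : orderOf t = 2)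
    (hcomm : ∀ i, x i * t = t * x i) (h2 : ∀ i, r i = 2 → x i = t) : False := by
  have := fin
  have ht2 : t * t = 1 := by rw [← pow_two, ← ht, pow_orderOf_eq_one]
  have ht1 : t ≠ 1 := fun h => by rw [h, orderOf_one] at ht; norm_num at ht
  rcases OddHalf.D4.Spor.HN.inv_cases ht2 ht1 with ⟨g, hg⟩ | ⟨g, hg⟩
  · have L := Large.conj large g
    rw [hg] at L
    exact ruleA hF h hc L hcomm h2
  · have e : g⁻¹ * t * g⁻¹⁻¹ = Q 0 := by rw [← hg]; group
    refine dead_2A hIH hF (pf_conj h g⁻¹) (cov_conj hc g⁻¹) ?_ ?_ ?_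
    · rintro hQ
      rw [hQ, mul_one, mul_inv_cancel] at hg
      exact ht1 hg.symm
    · intro i
      rw [← e]
      exact comm_conj (hcomm i) g⁻¹
    · intro i hi
      show g⁻¹ * x i * g⁻¹⁻¹ = Q 0
      rw [h2 i hi, e]

end cover

end Cfsg.Agent.H31.RC.Spor.HN
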